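import Cfsg.Agent.TG.E

/-! The case of a homocyclic maximal invariant normal abelian subgroup, second part. -/

set_option autoImplicit false

namespace Cfsg.Agent.TG

open Subgroup Cfsg.Agent.H2
open scoped commutatorElement

variable {X : Type*} [Group X]

namespace CaseB

variable {A : Subgroup (MulAut X)} {B : Subgroup X} {ω : MulAut X} {j : ℕ} {b₀ : X}
  (h : CaseB A B ω j b₀) [Finite X]
include h

/-- The preimage of the central involutions of `X / B` inside `K`. -/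
def E : Subgroup X := h.K ⊓ @omQ X _ B h.normal

theorem E_normal : h.E.Normal :=
  have := h.K_normal
  have := h.normal
  inferInstanceAs (h.K ⊓ omQ B).Normal

theorem le_E : B ≤ h.E := le_inf h.le_K (@le_omQ X _ B h.normal)

theorem E_inv {φ : MulAut X} (hφ : φ ∈ A) {e : X} (he : e ∈ h.E) : φ e ∈ h.E :=
  ⟨h.K_inv hφ he.1, @map_mem_omQ X _ B h.normal φ (h.inv φ hφ) e he.2⟩

theorem tau_eq (e : X) : e ^ 2 ^ (j + 2) = (e ^ 2) ^ 2 ^ (j + 1) := by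
  rw [← pow_mul, ← pow_succ']

theorem tau_mem {e : X} (he : e ∈ h.E) : e ^ 2 ^ (j + 2) ∈ omZ X :=
  h.tau_eq e ▸ h.lam_mem he.2.1

theorem mem_of_tau {e : X} (he : e ∈ h.E) (h1 : e ^ 2 ^ (j + 2) = 1) : e ∈ B := by
  obtain ⟨c, hc, hc2⟩ := h.root2 he.2.1 (h.tau_eq e ▸ h1)
  have hv := h.E_comm_mem he.1 he.2.1 hc
  obtain ⟨d, hd, hd2⟩ := h.root2 (h.V_le hv) (by rw [pow_succ', pow_mul, hv.2, one_pow])
  have hd3 := h.E_comm_eq_one he.1 he.2.1 hd (hd2 ▸ hv)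
  have hb : c⁻¹ * d ∈ B := mul_mem (inv_mem hc) hd
  have ht : c⁻¹ * d * e ∈ h.E := mul_mem (h.le_E hb) he
  have ht2 : (c⁻¹ * d * e) ^ 2 = 1 := by
    have e1 : ∀ b : X, (b * e) ^ 2 = b * ⁅e, b⁆ * b * e ^ 2 := fun b => by
      simp only [commutatorElement_def, sq]; group
    rw [e1, h.g_mul e (inv_mem hc) hd, h.g_inv e hc, hd3, hd2, hc2, mul_one,
      (h.c hb (inv_mem (pow_mem hd 2))).eq, mul_assoc (d ^ 2)⁻¹, ← sq,
      (h.c (inv_mem hc) hd).mul_pow, (h.c (pow_mem (inv_mem hc) 2) (pow_mem hd 2)).eq,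
      inv_mul_cancel_left, inv_pow, inv_mul_cancel]
  have ht3 := h.hyp.mem_omZ_of_card h.card4 ht2 fun y => by
    set t := c⁻¹ * d * e
    have hδ := ht.2.2 y
    have e1 := g_sq t y
    rw [ht2, commutatorElement_one_left, eq_comm] at e1
    have e2 := h.E_comm_mem ht.1 ht.2.1 hδ
    have e3 := h.E_comm_eq_one ht.1 ht.2.1 hδ (eq_inv_of_mul_eq_one_right e1 ▸ inv_mem e2)
    rw [e3, one_mul] at e1
    exact h.om hδ e1
  exact (mul_mem_cancel_left hb).mp (h.V_le ht3)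

theorem tau_mul {e f : X} (he : e ∈ h.E) (hf : f ∈ h.E) :
    (e * f) ^ 2 ^ (j + 2) = e ^ 2 ^ (j + 2) * f ^ 2 ^ (j + 2) := by
  have he' := inv_mem he
  have hδ := he'.2.2 f
  have e1 := congrArg (· ^ 2 ^ j) (g_sq e⁻¹ f)
  rw [(h.c (h.g_mem _ hδ) (pow_mem hδ 2)).mul_pow, he'.1 _ hδ, ← commutatorElement_inv f, inv_pow,
    hf.1 _ he'.2.1, inv_one, one_mul, ← pow_mul, ← pow_succ'] at e1
  rw [h.tau_eq, h.tau_eq e, h.tau_eq f, mul_sq_eq, (h.c (mul_mem he.2.1 hδ) hf.2.1).mul_pow,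
    (h.c he.2.1 hδ).mul_pow, ← e1, mul_one]

theorem tau_congr {e f : X} (he : e ∈ h.E) (hf : f ∈ h.E)
    (h1 : e ^ 2 ^ (j + 2) = f ^ 2 ^ (j + 2)) : e⁻¹ * f ∈ B :=
  h.mem_of_tau (mul_mem (inv_mem he) hf) (by
    rw [h.tau_mul (inv_mem he) hf, inv_pow, h1, inv_mul_cancel])

theorem tau_sq {x : X} (hx : x ∈ h.E) : (x * ω x)⁻¹ * ω (ω x) ∈ B := by
  have m1 := h.E_inv h.mem hx
  refine h.tau_congr (mul_mem hx m1) (h.E_inv h.mem m1) ?_
  rw [h.tau_mul hx m1, ← map_pow, ← map_pow, ← map_pow, h.hyp.sq_apply h.fpf (h.tau_mem hx)]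

theorem E_cent {x : X} (hx : x ∈ h.E) {b : X} (hb : b ∈ B) : ⁅x, b⁆ = 1 := by
  by_cases hxB : x ∈ B
  · exact h.g_one hxB hb
  have hV : ∀ e ∈ h.E, ∀ b ∈ B, ⁅e, b⁆ ^ 1 ∈ omZ X := fun e he b hb => by
    rw [pow_one]; exact h.E_comm_mem he.1 he.2.1 hb
  have m1 := h.E_inv h.mem hx
  have m2 := mul_mem hx m1
  rw [← pow_one ⁅x, b⁆]
  refine h.zero_or_inj (hV x hx) (fun c hc => ?_) hx.2.1
    (fun h1 => hxB (h.mem_of_tau hx (h.tau_eq x ▸ h1))) ?_ hb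
  · rw [← mul_inv_cancel_left (x * ω x) (ω (ω x)),
      h.f_left hc (hV _ m2 c hc) (hV _ (h.le_E (h.tau_sq hx)) c hc), h.g_one (h.tau_sq hx) hc,
      ← h.f_left hc (hV _ hx c hc) (hV _ m1 c hc), one_pow, mul_one, omZ_mul_self (hV _ m2 c hc)]
  · rw [pow_one]
    exact commutatorElement_eq_one_iff_commute.mpr (Commute.pow_right (Commute.refl x) 2)

theorem K_le : h.K ≤ B := by
  by_contra hcon
  have := h.K_normal
  have := h.normal
  obtain ⟨x, h1, h2, h3, h4⟩ := exists_mem_not_mem_pow_mem_top h.hyp.p hcon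
  have hx : x ∈ h.E := ⟨h1, h3, h4⟩
  have m1 := h.E_inv h.mem hx
  have hc : ∀ e ∈ h.E, ∀ b ∈ B, Commute e b := fun e he b hb =>
    commutatorElement_eq_one_iff_commute.mp (h.E_cent he hb)
  have hz : ⁅x, ω x⁆ ∈ omZ X := h.om (h4 _) (by
    rw [← commutator_pow_left_of_commute (hc x hx _ (h4 _))]
    exact commutatorElement_eq_one_iff_commute.mpr (hc _ m1 _ h3).symm)
  have hz1 : ⁅x, ω x⁆ = 1 := h.fpf _ hz (by
    rw [map_commutatorElement, ← mul_inv_cancel_left (x * ω x) (ω (ω x)),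
      commutator_mul_right_of_commute (by rw [h.E_cent m1 (h.tau_sq hx)]; exact Commute.one_right _),
      h.E_cent m1 (h.tau_sq hx), mul_one, commutator_mul_right_of_commute (by
        rw [commutatorElement_self]; exact Commute.one_right _), commutatorElement_self, mul_one,
      ← commutatorElement_inv, omZ_inv hz])
  have hxc : x ∈ centralizer (B : Set X) := fun b hb => (hc x hx b hb).symm
  have hωc : ω x ∈ centralizer ((B ⊔ zpowers x : Subgroup X) : Set X) := by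
    rw [centralizer_sup_zpowers]
    exact mem_inf.mpr ⟨fun b hb => (hc _ m1 b hb).symm, mem_centralizer_singleton_iff.mpr
      (commutatorElement_eq_one_iff_commute.mp hz1).symm⟩
  have hH := isMulCommutative_sup_zpowers (isMulCommutative_sup_zpowers h.comm hxc) hωc
  have hxH : x ∈ B ⊔ zpowers x ⊔ zpowers (ω x) := mem_sup_left (mem_sup_right (mem_zpowers x))
  have hωH : ω x ∈ B ⊔ zpowers x ⊔ zpowers (ω x) := mem_sup_right (mem_zpowers _)
  have hBH : B ≤ B ⊔ zpowers x ⊔ zpowers (ω x) := le_sup_left.trans le_sup_left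
  have hv := h.tau_mem hx
  have hE : h.E ≤ B ⊔ zpowers x ⊔ zpowers (ω x) := fun e he => by
    rcases h.hyp.cases_of_fpf hv (h.ne hv fun h5 => h2 (h.mem_of_tau hx h5)) (h.tau_mem he)
      with h5 | h5 | h5 | h5
    · exact hBH (h.mem_of_tau he h5)
    · exact (mul_mem_cancel_left (inv_mem hxH)).mp (hBH (h.tau_congr hx he h5.symm))
    · exact (mul_mem_cancel_left (inv_mem hωH)).mp
        (hBH (h.tau_congr m1 he (by rw [h5, map_pow])))
    · exact (mul_mem_cancel_left (inv_mem (mul_mem hxH hωH))).mp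
        (hBH (h.tau_congr (mul_mem hx m1) he (by rw [h5, h.tau_mul hx m1, map_pow])))
  exact h2 (h.max h.E h.E_normal (isMulCommutative_of_le hE hH) (fun φ hφ e he => h.E_inv hφ he)
    h.le_E hx)

theorem eq_one_of_fix {φ : MulAut X} (hφ : φ ∈ A) {v : X} (hv : v ∈ omZ X) (hv1 : v ≠ 1)
    (hfix : φ v = v) : φ = 1 := by
  have h1 : ∀ w ∈ omZ X, φ w = w := fun w hw => by
    by_contra hne
    exact hv1 (h.hyp.fpf hφ hw hne hv hfix)
  have h2 : ∀ b ∈ B, φ b = b := fun b hb =>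
    h.hyp.fix_of_fix_omega h.comm hφ (h.inv φ hφ) (fun c hc hc2 => h1 c (h.om hc hc2)) hb
  ext x
  refine h.hyp.fix hφ (h2 _ (h.K_le fun b hb => ?_))
  have h3 := h2 _ (h.normal.conj_mem b hb x)
  rw [map_mul, map_mul, map_inv, h2 b hb] at h3
  have h4 : ⁅x⁻¹ * φ x, b⁆ = 1 := by
    calc ⁅x⁻¹ * φ x, b⁆ = x⁻¹ * (φ x * b * (φ x)⁻¹) * x * b⁻¹ := by
          rw [commutatorElement_def]; group
      _ = 1 := by rw [h3]; group
  rw [h4, one_pow]

theorem cube (x : X) : ω (ω (ω x)) = x := by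
  have hv := h.lam_mem h.mem₀
  have := h.eq_one_of_fix (φ := ω * ω * ω) (mul_mem (mul_mem h.mem h.mem) h.mem) hv h.ne₀ (by
    rw [MulAut.mul_apply, MulAut.mul_apply, h.hyp.sq_apply h.fpf (map_mem_omZ ω hv),
      h.hyp.sq_apply h.fpf hv, ← (omZ_comm hv (ω _)).eq, ← mul_assoc,
      omZ_mul_self (map_mem_omZ ω hv), one_mul])
  exact congrArg (fun φ : MulAut X => φ x) this

theorem cases_A {φ : MulAut X} (hφ : φ ∈ A) : φ = 1 ∨ φ = ω ∨ φ = ω * ω := by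
  have hv := h.lam_mem h.mem₀
  rcases h.hyp.cases_of_fpf hv (h.ne hv h.ne₀) (map_mem_omZ φ hv) with h1 | h1 | h1 | h1
  · exact absurd ((map_eq_one_iff _ φ.injective).mp h1) h.ne₀
  · exact .inl (h.eq_one_of_fix hφ hv h.ne₀ h1)
  · refine .inr (.inl (inv_mul_eq_one.mp (h.eq_one_of_fix (mul_mem (inv_mem h.mem) hφ) hv h.ne₀
      ?_)).symm)
    rw [MulAut.mul_apply, h1, MulAut.inv_apply_self]
  · refine .inr (.inr (inv_mul_eq_one.mp (h.eq_one_of_fix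
      (mul_mem (inv_mem (mul_mem h.mem h.mem)) hφ) hv h.ne₀ ?_)).symm)
    rw [MulAut.mul_apply, h1, ← h.hyp.sq_apply h.fpf hv, ← MulAut.mul_apply _ ω ω,
      MulAut.inv_apply_self]

theorem rel (x : X) {b : X} (hb : b ∈ B) :
    ⁅x, b⁆ ^ 2 ^ j * ⁅ω x, b⁆ ^ 2 ^ j * ⁅ω (ω x), b⁆ ^ 2 ^ j = 1 := by
  have := omZ_isComm (X := X)
  let _ : CommGroup (omZ X) := { (inferInstance : Group (omZ X)) with mul_comm := mul_comm' }
  let F : X →* omZ X := MonoidHom.mk' (fun x => ⟨⁅x, b⁆ ^ 2 ^ j, h.f_mem x hb⟩) fun x y =>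
    Subtype.ext (h.f_left hb (h.f_mem x hb) (h.f_mem y hb))
  let π : X →* omZ X := F * F.comp ω.toMonoidHom * F.comp (ω * ω).toMonoidHom
  have hπ : ∀ y, π y = F y * F (ω y) * F (ω (ω y)) := fun y => rfl
  have h1 : ∀ y, π (ω y) = π y := fun y => by
    rw [hπ, hπ, h.cube, mul_comm _ (F y), mul_assoc]
  have h2 := h.hyp.hom_triv π (fun φ hφ y => by
    rcases h.cases_A hφ with rfl | rfl | rfl
    · rfl
    · exact h1 y
    · exact (h1 _).trans (h1 y)) x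
  exact congrArg Subtype.val h2

theorem lam_eq_one {x : X} (hx : x ∉ B) {b : X} (hb : b ∈ B) (h1 : ⁅x, b⁆ ^ 2 ^ j = 1) :
    b ^ 2 ^ (j + 1) = 1 := by
  by_contra h2
  exact hx (h.K_le fun c hc => h.zero_or_inj (fun b hb => h.f_mem x hb) (fun b hb => h.rel x hb)
    hb h2 h1 hc)

theorem j_eq (hna : ¬ IsMulCommutative X) : j = 0 := by
  rcases j with _ | i
  · rfl
  exfalso
  obtain ⟨x, hx⟩ : ∃ x, x ∉ B := by
    by_contra! h1
    exact hna ⟨⟨fun a b => h.c (h1 a) (h1 b)⟩⟩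
  have key : ∀ x ∉ B, ⁅x, b₀⁆ ^ 2 ^ (i + 1) = b₀ ^ 2 ^ (i + 1 + 1) := by
    intro x hx
    obtain ⟨c, hc, h1⟩ := h.root2 (h.g_mem x h.mem₀) (by
      rw [pow_succ, pow_mul, (h.f_mem x h.mem₀).2])
    have h2 := congrArg (· ^ 2 ^ i) (g_sq x b₀)
    rw [h.g_one (h.K_le (h.sq_mem_K x)) h.mem₀, one_pow, h1, h.g_pow x hc,
      (h.c (pow_mem (h.g_mem x hc) 2) (pow_mem (pow_mem hc 2) 2)).mul_pow, ← pow_mul, ← pow_mul,
      ← pow_mul, ← pow_succ', ← pow_succ', eq_comm] at h2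
    have h3 := (eq_inv_of_mul_eq_one_left h2).trans (omZ_inv (h.lam_mem hc))
    have h4 : ⁅x, b₀⁆ ^ 2 ^ (i + 1) = c ^ 2 ^ (i + 1 + 1) := by rw [h1, ← pow_mul, ← pow_succ']
    have h5 := h.lam_eq_one hx (mul_mem h.mem₀ (inv_mem hc)) (by
      rw [h.f_right x h.mem₀ (inv_mem hc), h.g_inv x hc, inv_pow, h3, h4, mul_inv_cancel])
    rw [(h.c h.mem₀ (inv_mem hc)).mul_pow, inv_pow, mul_inv_eq_one] at h5
    rw [h4, h5]
  have hω : ∀ y ∉ B, ω y ∉ B := fun y hy h1 => hy (by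
    simpa using h.inv ω⁻¹ (inv_mem h.mem) _ h1)
  have h1 := h.rel x h.mem₀
  rw [key x hx, key _ (hω x hx), key _ (hω _ (hω x hx)), omZ_mul_self (h.lam_mem h.mem₀),
    one_mul] at h1
  exact h.ne₀ h1

theorem case_b (hna : ¬ IsMulCommutative X) : center X ≤ omZ X ∧ ∀ x : X, x ^ 2 ∈ omZ X := by
  obtain rfl := h.j_eq hna
  obtain ⟨x₀, hx₀⟩ : ∃ x, x ∉ B := by
    by_contra! h1
    exact hna ⟨⟨fun a b => h.c (h1 a) (h1 b)⟩⟩
  refine ⟨fun z hz => ⟨hz, ?_⟩, fun x => ?_⟩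
  · simpa using h.lam_eq_one hx₀ (h.cen hz) (by
      rw [commutatorElement_eq_one_iff_mul_comm.mpr (mem_center_iff.mp hz x₀), one_pow])
  · by_cases hx : x ∈ B
    · simpa using h.lam_mem hx
    · have h1 := h.K_le (h.sq_mem_K x)
      refine h.om h1 ?_
      simpa using h.lam_eq_one hx h1 (by
        rw [commutatorElement_eq_one_iff_commute.mpr (Commute.pow_right (Commute.refl x) 2),
          one_pow])

end CaseB

theorem Hyp.main [Finite X] {A : Subgroup (MulAut X)} (h : Hyp A) (hna : ¬ IsMulCommutative X) :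
    center X ≤ omZ X ∧ ∀ x : X, x ^ 2 ∈ omZ X := by
  classical
  have hZc : IsMulCommutative (center X) := inferInstance
  obtain ⟨B, hZB, hB⟩ := Finite.exists_le_maximal (p := fun W : Subgroup X => W.Normal ∧
    IsMulCommutative W ∧ ∀ φ ∈ A, ∀ b ∈ W, φ b ∈ W) (a := center X)
    ⟨inferInstance, hZc, fun φ _ b hb => map_mem_center φ hb⟩
  obtain ⟨hn, hc, hinv⟩ := hB.prop
  have hmax : ∀ W : Subgroup X, W.Normal → IsMulCommutative W → (∀ φ ∈ A, ∀ b ∈ W, φ b ∈ W) →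
      B ≤ W → W ≤ B := fun W h1 h2 h3 h4 => hB.le_of_ge ⟨h1, h2, h3⟩ h4
  have hall : B ≤ center X → ∀ W : Subgroup X, W.Normal → IsMulCommutative W →
      (∀ φ ∈ A, ∀ b ∈ W, φ b ∈ W) → W ≤ center X := fun h0 W h1 h2 h3 => by
    refine le_sup_left.trans ((hmax (W ⊔ center X) inferInstance
      (isMulCommutative_sup h2 hZc (center_le_centralizer _)) (fun φ hφ b hb => ?_)
      (h0.trans le_sup_right)).trans h0)
    obtain ⟨w, hw, z, hz, rfl⟩ := (mem_sup_of_le_normalizer le_normalizer_of_normal).mp hb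
    rw [map_mul]
    exact mul_mem (mem_sup_left (h3 φ hφ w hw)) (mem_sup_right (map_mem_center φ hz))
  by_cases hfix : ∀ φ ∈ A, ∀ b ∈ B, b ^ 2 = 1 → φ b = b
  · have h1 : ∀ φ ∈ A, ∀ b ∈ B, φ b = b := fun φ hφ b hb =>
      h.fix_of_fix_omega hc hφ (hinv φ hφ) (hfix φ hφ) hb
    exact h.case_a (hall (h.le_center_of_fix h1)) (.inl fun φ hφ z hz => h1 φ hφ z (hZB hz))
  by_cases hel : ∀ b ∈ B, b ^ 2 = 1
  · exact h.case_a (hall fun b hb => h.mem_center_of_sq hc hinv hb (hel b hb))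
      (.inr fun z hz => ⟨hz, hel z (hZB hz)⟩)
  push Not at hfix hel
  obtain ⟨ω, hω, v, hv, hv2, hne⟩ := hfix
  have hvV : v ∈ omZ X := ⟨h.mem_center_of_sq hc hinv hv hv2, hv2⟩
  have hex : ∃ n, ∀ b ∈ B, b ^ 2 ^ n = 1 := by
    obtain ⟨n, hn⟩ := IsPGroup.iff_card.mp h.p
    exact ⟨n, fun b _ => hn ▸ pow_card_eq_one'⟩
  have h1 := Nat.find_spec hex
  have h2 : ∀ m < Nat.find hex, ¬ ∀ b ∈ B, b ^ 2 ^ m = 1 := fun m hm => Nat.find_min hex hm
  obtain ⟨b₁, hb₁, hb₁'⟩ := hel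
  generalize Nat.find hex = n at h1 h2
  match n, h1, h2 with
  | 0, h1, _ => exact absurd (by rw [show b₁ = 1 by simpa using h1 b₁ hb₁, one_pow]) hb₁'
  | 1, h1, _ => exact absurd (by simpa using h1 b₁ hb₁) hb₁'
  | j + 2, h1, h2 =>
    obtain ⟨b₀, hb₀, hb₀'⟩ : ∃ b₀ ∈ B, b₀ ^ 2 ^ (j + 1) ≠ 1 := by
      by_contra! h3
      exact h2 (j + 1) (by omega) h3
    exact CaseB.case_b ⟨h, hn, hc, hinv, hmax, hZB, hω,
      fun w hw hw' => h.fpf hω hvV hne hw hw', h1, hb₀, hb₀'⟩ hna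

end Cfsg.Agent.TG
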