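import Cfsg.Agent.H2.Minus
import Cfsg.Agent.H2.Dih

/-! Two-groups without normal elementary subgroups of order eight acted on by odd groups:
basic facts. -/

set_option autoImplicit false

namespace Cfsg.Agent.TG

open Subgroup Cfsg.Agent.H2
open scoped commutatorElement

variable {X : Type*} [Group X]

/-- The hypotheses. -/
structure Hyp (A : Subgroup (MulAut X)) : Prop where
  p : IsPGroup 2 X
  rk : ∀ N : Subgroup X, N.Normal → IsMulCommutative N → (∀ x ∈ N, x ^ 2 = 1) → Nat.card N ≤ 4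
  odd : Odd (Nat.card A)
  gen : ∀ N : Subgroup X, (∀ φ ∈ A, ∀ x, x⁻¹ * φ x ∈ N) → N = ⊤

/-- The central elements of order at most two. -/
def omZ (X : Type*) [Group X] : Subgroup X where
  carrier := {v | v ∈ center X ∧ v ^ 2 = 1}
  one_mem' := ⟨one_mem _, one_pow _⟩
  mul_mem' := fun {a b} ha hb => ⟨mul_mem ha.1 hb.1, by
    rw [Commute.mul_pow (mem_center_iff.mp hb.1 a), ha.2, hb.2, one_mul]⟩
  inv_mem' := fun {a} ha => ⟨inv_mem ha.1, by rw [inv_pow, ha.2, inv_one]⟩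

theorem mem_omZ {v : X} : v ∈ omZ X ↔ v ∈ center X ∧ v ^ 2 = 1 := Iff.rfl

theorem omZ_le : omZ X ≤ center X := fun _ h => h.1

instance omZ_normal : (omZ X).Normal := ⟨fun n hn g => by
  rwa [mem_center_iff.mp hn.1 g, mul_inv_cancel_right]⟩

theorem map_mem_center (φ : MulAut X) {v : X} (h : v ∈ center X) : φ v ∈ center X := by
  rw [mem_center_iff] at h ⊢
  intro g
  obtain ⟨g, rfl⟩ := φ.surjective g
  rw [← map_mul, ← map_mul, h]

theorem map_mem_omZ (φ : MulAut X) {v : X} (h : v ∈ omZ X) : φ v ∈ omZ X :=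
  ⟨map_mem_center φ h.1, by rw [← map_pow, h.2, map_one]⟩

theorem omZ_comm {v : X} (h : v ∈ omZ X) (g : X) : Commute g v := mem_center_iff.mp h.1 g

theorem omZ_isComm : IsMulCommutative (omZ X) :=
  ⟨⟨fun a b => Subtype.ext (omZ_comm b.2 (a : X)).eq⟩⟩

theorem omZ_mul_self {v : X} (h : v ∈ omZ X) : v * v = 1 := by rw [← sq, h.2]

theorem omZ_inv {v : X} (h : v ∈ omZ X) : v⁻¹ = v := inv_eq_of_mul_eq_one_left (omZ_mul_self h)

theorem four_cases [Finite X] {H : Subgroup X} (h4 : Nat.card H ≤ 4) {a b c : X} (ha : a ∈ H)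
    (hb : b ∈ H) (hc : c ∈ H) (ha1 : a ≠ 1) (hb1 : b ≠ 1) (hab : a ≠ b) (hab' : a * b ≠ 1) :
    c = 1 ∨ c = a ∨ c = b ∨ c = a * b := by
  classical
  by_contra hcon
  push Not at hcon
  obtain ⟨h1, h2, h3, h5⟩ := hcon
  have hsub : (({1, a, b, a * b, c} : Finset X) : Set X) ⊆ (H : Set X) := by
    intro x hx
    simp only [Finset.coe_insert, Finset.coe_singleton, Set.mem_insert_iff,
      Set.mem_singleton_iff] at hx
    rcases hx with rfl | rfl | rfl | rfl | rfl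
    exacts [one_mem _, ha, hb, mul_mem ha hb, hc]
  have h6 := Set.ncard_le_ncard hsub
  rw [Set.ncard_coe_finset] at h6
  have h7 : ({1, a, b, a * b, c} : Finset X).card = 5 := by
    have e1 : a * b ≠ a := by simpa using hb1
    have e2 : a * b ≠ b := by simpa using ha1
    rw [Finset.card_insert_of_notMem, Finset.card_insert_of_notMem, Finset.card_insert_of_notMem,
      Finset.card_insert_of_notMem, Finset.card_singleton]
    · simpa using h5.symm
    · simp [e2.symm, h3.symm]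
    · simp [hab, e1.symm, h2.symm]
    · simp [ha1.symm, hb1.symm, hab'.symm, h1.symm]
  have h8 : (H : Set X).ncard = Nat.card H := rfl
  omega

theorem comm_eq_sq (x y : X) : ⁅x, y⁆ = x ^ 2 * (x⁻¹ * y) ^ 2 * (y⁻¹) ^ 2 := by
  rw [commutatorElement_def]; simp only [sq]; group

namespace Hyp

variable [Finite X] {A : Subgroup (MulAut X)} (h : Hyp A)
include h

theorem fix {φ : MulAut X} (hφ : φ ∈ A) {x : X} (hx : φ (x⁻¹ * φ x) = x⁻¹ * φ x) : φ x = x := by
  obtain ⟨k, hk⟩ := h.p (x⁻¹ * φ x)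
  have h1 : φ ^ Nat.card A = 1 := by
    have := pow_card_eq_one' (G := A) (x := ⟨φ, hφ⟩)
    exact congrArg Subtype.val this
  exact mulAut_apply_eq_of_coprime h1 hx hk
    (Nat.Coprime.pow_right _ (Nat.coprime_two_right.mpr h.odd))

omit [Finite X] in
theorem hom_triv {Q : Type*} [Group Q] (π : X →* Q) (hπ : ∀ φ ∈ A, ∀ y, π (φ y) = π y) (y : X) :
    π y = 1 := by
  have := h.gen π.ker fun φ hφ x => by rw [MonoidHom.mem_ker, map_mul, map_inv, hπ φ hφ, inv_mul_cancel]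
  exact MonoidHom.mem_ker.mp (this ▸ mem_top y)

theorem mem_of_fix {N : Subgroup X} [N.Normal] (hN : ∀ x y : X, ⁅x, y⁆ ∈ N) {x : X}
    (hx : ∀ φ ∈ A, x⁻¹ * φ x ∈ N) : x ∈ N := by
  classical
  have hc : ∀ a b : X ⧸ N, a * b = b * a := by
    intro a b
    obtain ⟨a, rfl⟩ := QuotientGroup.mk_surjective a
    obtain ⟨b, rfl⟩ := QuotientGroup.mk_surjective b
    rw [← QuotientGroup.mk_mul, ← QuotientGroup.mk_mul, QuotientGroup.eq]
    have := hN b⁻¹ a⁻¹
    rw [commutatorElement_def] at this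
    simpa [mul_assoc] using this
  let _ : CommGroup (X ⧸ N) := { (inferInstance : Group (X ⧸ N)) with mul_comm := hc }
  have : Finite A := inferInstance
  have := Fintype.ofFinite A
  let π : X →* X ⧸ N := ∏ φ : A, (QuotientGroup.mk' N).comp (φ : MulAut X).toMonoidHom
  have hπ : ∀ y, π y = ∏ φ : A, ((φ : MulAut X) y : X ⧸ N) := fun y => by
    simp [π, MonoidHom.finsetProd_apply]
  have h1 := h.hom_triv π (fun ψ hψ y => by
    rw [hπ, hπ]
    exact Fintype.prod_equiv (Equiv.mulRight (⟨ψ, hψ⟩ : A)) _ _ fun φ => rfl) x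
  rw [hπ, Finset.prod_congr rfl (g := fun _ => (x : X ⧸ N))
    (fun (φ : A) _ => (QuotientGroup.eq.mpr (hx φ.1 φ.2)).symm), Finset.prod_const, Finset.card_univ,
    ← Nat.card_eq_fintype_card] at h1
  obtain ⟨k, hk⟩ := h.p x
  have h2 : (x : X ⧸ N) ^ 2 ^ k = 1 := by rw [← QuotientGroup.mk_pow, hk, QuotientGroup.mk_one]
  have h3 := pow_gcd_eq_one.mpr ⟨h1, h2⟩
  rw [Nat.Coprime.pow_right _ (Nat.coprime_two_right.mpr h.odd), pow_one] at h3
  exact (QuotientGroup.eq_one_iff x).mp h3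

omit [Finite X] in
theorem card_omZ : Nat.card (omZ X) ≤ 4 :=
  h.rk _ inferInstance omZ_isComm fun _ hx => hx.2

theorem mem_omZ_of_card (h4 : Nat.card (omZ X) = 4) {t : X} (ht : t ^ 2 = 1)
    (hc : ∀ x, ⁅t, x⁆ ∈ omZ X) : t ∈ omZ X := by
  by_contra hcon
  have hcen : t ∈ centralizer (omZ X : Set X) := fun v hv => (omZ_comm hv t).symm
  have h1 := card_sup_zpowers_eq (p := 2) (centralizer_le_normalizer _ hcen) hcon (ht ▸ one_mem _)
  have h2 := h.rk _ (normal_sup_zpowers hc) (isMulCommutative_sup_zpowers omZ_isComm hcen)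
    (pow_eq_one_of_mem_sup_zpowers (fun _ hx => hx.2) hcen ht)
  omega

/-- An automorphism in `A` fixing the involutions of an invariant abelian subgroup fixes it. -/
theorem fix_of_fix_omega {B : Subgroup X} (hB : IsMulCommutative B) {φ : MulAut X} (hφ : φ ∈ A)
    (hinv : ∀ b ∈ B, φ b ∈ B) (hfix : ∀ b ∈ B, b ^ 2 = 1 → φ b = b) {b : X} (hb : b ∈ B) :
    φ b = b := by
  obtain ⟨k, hk⟩ := h.p b
  induction k generalizing b with
  | zero => rw [pow_zero, pow_one] at hk; rw [hk, map_one]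
  | succ k ih =>
    have h1 := ih (pow_mem hb 2) (by rw [← pow_mul, ← pow_succ', hk])
    refine h.fix hφ (hfix _ (mul_mem (inv_mem hb) (hinv b hb)) ?_)
    rw [Commute.mul_pow (setLike_mul_comm (inv_mem hb) (hinv b hb)), ← map_pow, h1, inv_pow,
      inv_mul_cancel]

omit [Finite X] in
/-- A normal subgroup fixed elementwise by `A` is central. -/
theorem le_center_of_fix {B : Subgroup X} [hB : B.Normal] (hfix : ∀ φ ∈ A, ∀ b ∈ B, φ b = b) :
    B ≤ center X := by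
  have h1 := h.gen (centralizer (B : Set X)) fun φ hφ x b hb => by
    have h2 := hfix φ hφ _ (hB.conj_mem b hb x)
    rw [map_mul, map_mul, map_inv, hfix φ hφ b hb] at h2
    calc b * (x⁻¹ * φ x) = x⁻¹ * (x * b * x⁻¹) * φ x := by group
      _ = x⁻¹ * (φ x * b * (φ x)⁻¹) * φ x := by rw [h2]
      _ = x⁻¹ * φ x * b := by group
  intro b hb
  rw [mem_center_iff]
  intro g
  exact ((h1 ▸ mem_top g : g ∈ centralizer (B : Set X)) b hb).symm

/-- Involutions of invariant normal abelian subgroups are central. -/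
theorem mem_center_of_sq {B : Subgroup X} [hBn : B.Normal] (hB : IsMulCommutative B)
    (hinv : ∀ φ ∈ A, ∀ b ∈ B, φ b ∈ B) {w : X} (hw : w ∈ B) (hw2 : w ^ 2 = 1) : w ∈ center X := by
  by_contra hcon
  let W : Subgroup X :=
    { carrier := {v | v ∈ B ∧ v ^ 2 = 1}
      one_mem' := ⟨one_mem _, one_pow _⟩
      mul_mem' := fun {a b} ha hb => ⟨mul_mem ha.1 hb.1, by
        rw [Commute.mul_pow (setLike_mul_comm ha.1 hb.1), ha.2, hb.2, one_mul]⟩
      inv_mem' := fun {a} ha => ⟨inv_mem ha.1, by rw [inv_pow, ha.2, inv_one]⟩ }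
  have hWn : W.Normal := ⟨fun n hn g => ⟨hBn.conj_mem n hn.1 g, by rw [conj_pow, hn.2]; simp⟩⟩
  have hW4 := h.rk W hWn ⟨⟨fun a b => Subtype.ext (setLike_mul_comm a.2.1 b.2.1)⟩⟩ fun _ hx => hx.2
  have := h.p.isNilpotent
  have hw1 : w ≠ 1 := fun h1 => hcon (h1 ▸ one_mem _)
  obtain ⟨⟨z, hzW, hzc⟩, hz1⟩ := ne_bot_iff_exists_ne_one.mp (inf_center_ne_bot_of_nilpotent (K := W)
    (ne_bot_iff_exists_ne_one.mpr ⟨⟨w, hw, hw2⟩, fun h1 => hw1 (congrArg Subtype.val h1)⟩))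
  have hz1' : z ≠ 1 := fun h1 => hz1 (Subtype.ext h1)
  replace hzc : z ∈ center X := hzc
  have hzw : z * w ∉ center X := fun h1 => hcon (by simpa using mul_mem (inv_mem hzc) h1)
  have cases : ∀ c ∈ W, c = 1 ∨ c = z ∨ c = w ∨ c = z * w := fun c hc =>
    four_cases hW4 hzW ⟨hw, hw2⟩ hc hz1' hw1 (fun h1 => hcon (h1 ▸ hzc))
      (fun h1 => hzw (h1 ▸ one_mem _))
  have hinvW : ∀ φ ∈ A, ∀ c ∈ W, φ c ∈ W := fun φ hφ c hc =>
    ⟨hinv φ hφ c hc.1, by rw [← map_pow, hc.2, map_one]⟩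
  have hz : ∀ φ ∈ A, φ z = z := fun φ hφ => by
    rcases cases _ (hinvW φ hφ z hzW) with h1 | h1 | h1 | h1
    · exact absurd ((map_eq_one_iff _ φ.injective).mp h1) hz1'
    · exact h1
    · exact absurd (h1 ▸ map_mem_center φ hzc) hcon
    · exact absurd (h1 ▸ map_mem_center φ hzc) hzw
  have hw' : ∀ φ ∈ A, φ w = w := fun φ hφ => by
    have h2 : φ w ∉ center X := fun h2 => hcon (by simpa using map_mem_center φ⁻¹ h2)
    rcases cases _ (hinvW φ hφ w ⟨hw, hw2⟩) with h1 | h1 | h1 | h1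
    · exact absurd (h1 ▸ one_mem _) h2
    · exact absurd (h1 ▸ hzc) h2
    · exact h1
    · refine h.fix hφ ?_
      have h3 : w⁻¹ * φ w = z := by rw [h1, ← mem_center_iff.mp hzc w, inv_mul_cancel_left]
      rw [h3, hz φ hφ]
  refine hcon (h.le_center_of_fix (B := W) (fun φ hφ c hc => ?_) ⟨hw, hw2⟩)
  rcases cases c hc with rfl | rfl | rfl | rfl
  exacts [map_one _, hz φ hφ, hw' φ hφ, by rw [map_mul, hz φ hφ, hw' φ hφ]]

/-- An element of `A` moving a central involution fixes none. -/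
theorem fpf {ω : MulAut X} (hω : ω ∈ A) {v₀ : X} (hv₀ : v₀ ∈ omZ X) (hne : ω v₀ ≠ v₀) {v : X}
    (hv : v ∈ omZ X) (hfix : ω v = v) : v = 1 := by
  have h1 : v₀ ≠ 1 := fun h1 => hne (by rw [h1, map_one])
  have h2 : ω v₀ ≠ 1 := fun h2 => h1 ((map_eq_one_iff _ ω.injective).mp h2)
  rcases four_cases h.card_omZ hv₀ (map_mem_omZ ω hv₀) hv h1 h2 hne.symm
    (fun h3 => hne ((eq_inv_of_mul_eq_one_right h3).trans (omZ_inv hv₀)))
    with h3 | h3 | h3 | h3
  · exact h3
  · exact absurd (h3 ▸ hfix) hne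
  · exact absurd (ω.injective (h3 ▸ hfix)) hne
  · exact absurd (h.fix hω (by rw [omZ_inv hv₀, ← h3, hfix])) hne

theorem cases_of_fpf {ω : MulAut X} {v : X} (hv : v ∈ omZ X) (hne : ω v ≠ v) {c : X}
    (hc : c ∈ omZ X) : c = 1 ∨ c = v ∨ c = ω v ∨ c = v * ω v := by
  have h1 : v ≠ 1 := fun h1 => hne (by rw [h1, map_one])
  have h2 : ω v ≠ 1 := fun h2 => h1 ((map_eq_one_iff _ ω.injective).mp h2)
  exact four_cases h.card_omZ hv (map_mem_omZ ω hv) hc h1 h2 hne.symm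
    (fun h3 => hne ((eq_inv_of_mul_eq_one_right h3).trans (omZ_inv hv)))

theorem sq_apply {ω : MulAut X} (hfpf : ∀ v ∈ omZ X, ω v = v → v = 1) {v : X} (hv : v ∈ omZ X) :
    ω (ω v) = v * ω v := by
  by_cases h1 : v = 1
  · simp [h1]
  have hne : ω v ≠ v := fun h2 => h1 (hfpf v hv h2)
  rcases h.cases_of_fpf hv hne (map_mem_omZ ω (map_mem_omZ ω hv)) with h3 | h3 | h3 | h3
  · exact absurd ((map_eq_one_iff _ ω.injective).mp ((map_eq_one_iff _ ω.injective).mp h3)) h1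
  · have h4 := hfpf (v * ω v) (mul_mem hv (map_mem_omZ ω hv)) (by rw [map_mul, h3, omZ_comm hv])
    exact absurd ((eq_inv_of_mul_eq_one_right h4).trans (omZ_inv hv)) hne
  · exact absurd (ω.injective h3) hne
  · exact h3

theorem card_omZ_eq {ω : MulAut X} {v : X} (hv : v ∈ omZ X) (hne : ω v ≠ v) :
    Nat.card (omZ X) = 4 := by
  obtain ⟨k, hk⟩ := IsPGroup.iff_card.mp (h.p.to_subgroup (omZ X))
  have h4 := h.card_omZ
  have h1 : v ≠ 1 := fun h1 => hne (by rw [h1, map_one])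
  have h2 : ω v ≠ 1 := fun h2 => h1 ((map_eq_one_iff _ ω.injective).mp h2)
  have h3 : 2 < Nat.card (omZ X) := by
    have := Fintype.ofFinite (omZ X)
    rw [Nat.card_eq_fintype_card, Fintype.two_lt_card_iff]
    exact ⟨1, ⟨v, hv⟩, ⟨ω v, map_mem_omZ ω hv⟩, fun h => h1 (congrArg Subtype.val h).symm,
      fun h => h2 (congrArg Subtype.val h).symm, fun h => hne (congrArg Subtype.val h).symm⟩
  rw [hk] at h3 h4 ⊢
  match k, h3, h4 with
  | 0, h3, _ => omega
  | 1, h3, _ => omega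
  | 2, _, _ => rfl
  | k + 3, _, h4 => rw [pow_add] at h4; have := Nat.two_pow_pos k; omega

end Hyp

end Cfsg.Agent.TG
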