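import Cfsg.Agent.TG.A

/-! The case of a centre of order two. -/

set_option autoImplicit false

namespace Cfsg.Agent.TG

open Subgroup Cfsg.Agent.H2
open scoped commutatorElement

variable {X : Type*} [Group X]

theorem card_inv_add_one [Finite X] : Nat.card {x : X // orderOf x = 2} + 1 = nsq (1 : X) := by
  classical
  have h1 : {x : X | x ^ 2 = 1} = insert 1 {x : X | orderOf x = 2} := by
    ext x
    simp only [Set.mem_ofPred_eq, Set.mem_insert_iff]
    constructor
    · intro h
      by_cases h1 : x = 1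
      · exact .inl h1
      · exact .inr (orderOf_eq_prime h h1)
    · rintro (rfl | h)
      · exact one_pow _
      · rw [← h, pow_orderOf_eq_one]
  have h2 : nsq (1 : X) = {x : X | x ^ 2 = 1}.ncard := rfl
  have h3 : Nat.card {x : X // orderOf x = 2} = {x : X | orderOf x = 2}.ncard := rfl
  rw [h2, h3, h1, Set.ncard_insert_of_notMem (by simp)]

namespace Hyp

variable [Finite X] {A : Subgroup (MulAut X)} (h : Hyp A)
include h

theorem rank_of_class_two (hcen : center X ≤ omZ X) (hc : ∀ x y : X, ⁅x, y⁆ ∈ omZ X)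
    (W : Subgroup X) (hW : IsMulCommutative W) (hW2 : ∀ a ∈ W, a ^ 2 = 1) :
    Nat.card W ≤ 4 := by
  have hcent : omZ X ≤ centralizer (W : Set X) := fun v hv w _ => omZ_comm hv w
  have hn : (W ⊔ omZ X).Normal := ⟨fun n hn g => by
    have : g * n * g⁻¹ = ⁅g, n⁆ * n := by rw [commutatorElement_def]; group
    rw [this]
    exact mul_mem (mem_sup_right (hc g n)) hn⟩
  refine (card_le_of_le le_sup_left).trans (h.rk _ hn (isMulCommutative_sup hW omZ_isComm hcent) ?_)
  intro x hx
  obtain ⟨a, ha, b, hb, rfl⟩ := (mem_sup_of_le_normalizer le_normalizer_of_normal).mp hx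
  rw [(omZ_comm hb a).mul_pow, hW2 a ha, hb.2, one_mul]

theorem case_two (hna : ¬ IsMulCommutative X) (hcen : center X ≤ omZ X)
    (hsq : ∀ x : X, x ^ 2 ∈ omZ X) (h2 : Nat.card (omZ X) = 2) :
    Nonempty (X ≃* QuaternionGroup 2) ∨
      (IsExtraspecial 2 X ∧ Nat.card X = 32 ∧ Nat.card {x : X // orderOf x = 2} = 11) := by
  have hc : ∀ x y : X, ⁅x, y⁆ ∈ omZ X := fun x y => by
    rw [comm_eq_sq]; exact mul_mem (mul_mem (hsq _) (hsq _)) (hsq _)
  obtain ⟨z, hz, hZ⟩ := exists_eq_zpowers_of_card_eq_prime h2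
  have e : ES 2 z := ⟨hz, hZ ▸ le_antisymm hcen omZ_le, hZ ▸ hc, hZ ▸ hsq⟩
  have hrk := h.rank_of_class_two hcen hc
  obtain ⟨x₀, hx₀⟩ : ∃ x : X, x ∉ zpowers z := by
    by_contra! h1
    exact hna ⟨⟨fun a b => (e.commute_of_mem a (h1 b)).eq⟩⟩
  by_cases h1 : ∀ x : X, x ^ 2 = 1 → x ∈ zpowers z
  · left
    obtain ⟨y, hy⟩ := e.exists_partner hx₀
    obtain ⟨hx2, hy2, h3⟩ := e.forall_mem_of_no_involution h1 hy
    have h4 := e.card_cent2 hy
    rw [(e.sub hy).forall_mem_iff.mp h3] at h4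
    refine nonempty_equiv_quaternion (c := x₀) (t := y) (n := 2) ?_ (by rw [← sq, hy2, hx2]) ?_ ?_
      (by omega)
    · refine orderOf_eq_prime_pow (p := 2) (n := 1) (by rw [pow_one, hx2]; exact e.ne_one) ?_
      rw [show 2 ^ (1 + 1) = 2 * 2 from rfl, pow_mul, hx2, e.pow_eq_one]
    · have h5 : y * x₀ * y⁻¹ = ⁅y, x₀⁆ * x₀ := by rw [commutatorElement_def]; group
      rw [h5, e.commutator_symm, hy, eq_inv_iff_mul_eq_one, mul_assoc, ← sq, hx2, e.mul_self]
    · rintro ⟨i, hi⟩
      refine e.ne_one (hy.symm.trans (commutatorElement_eq_one_iff_commute.mpr ?_))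
      rw [← hi]
      exact Commute.zpow_right (Commute.refl x₀) i
  · right
    push Not at h1
    obtain ⟨x, hx, hx'⟩ := h1
    obtain ⟨y, hxy, hy⟩ := e.exists_partner_sq hx' hx
    have h4 := e.card_cent2 hxy
    have e' := e.sub hxy
    have hC : ∀ c : cent2 x y, c ^ 2 = 1 → c ∈ zpowers (⟨z, e.mem_cent2 x y⟩ : cent2 x y) := by
      intro c hc2
      have hc' : (c : X) ^ 2 = 1 := congrArg Subtype.val hc2
      have h5 := mem_cent2.mp c.2
      rcases mem_zpowers_cases_of_rank_two hrk hz hx hc' h5.1.symm (e.commute _) (e.commute _)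
        with h6 | h6 | h6
      · exact absurd h6 hx'
      · obtain ⟨i, hi⟩ := h6
        exact ⟨i, Subtype.ext hi⟩
      · have h7 := commutatorElement_eq_one_iff_commute.mpr (e.commute_of_mem y h6).symm
        rw [e.commutator_mul_left, hxy, commutatorElement_eq_one_iff_commute.mpr h5.2,
          mul_one] at h7
        exact absurd h7 e.ne_one
    by_cases h5 : ∀ c : cent2 x y, c ∈ zpowers (⟨z, e.mem_cent2 x y⟩ : cent2 x y)
    · exfalso
      have hmem : ∀ c ∈ cent2 x y, c ∈ zpowers z := fun c hc => by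
        obtain ⟨i, hi⟩ := h5 ⟨c, hc⟩
        exact ⟨i, congrArg Subtype.val hi⟩
      have hz' : z ∈ omZ X := hZ ▸ mem_zpowers z
      have hsqz : ∀ c ∈ zpowers z, c ^ 2 = 1 := fun c hc => (hZ ▸ hc : c ∈ omZ X).2
      have hxy2 : (x * y) ^ 2 = z := by rw [e.mul_sq, hx, hy, hxy, one_mul, one_mul]
      have h6 : x * y ∈ omZ X := h.mem_of_fix hc fun φ hφ => by
        have h7 : (φ (x * y)) ^ 2 ≠ 1 := by
          rw [← map_pow, hxy2, Ne, map_eq_one_iff _ φ.injective]; exact e.ne_one
        obtain ⟨i, j, c, hc', h8⟩ := e.exists_nf hxy (φ (x * y))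
        have h9 := hmem c hc'
        rw [h8] at h7 ⊢
        rcases zpow_eq_one_or_self hx i with h10 | h10 <;>
          rcases zpow_eq_one_or_self hy j with h11 | h11 <;> rw [h10, h11] at h7 ⊢
        · exact absurd (by rw [one_mul, one_mul, hsqz c h9]) h7
        · exact absurd (by rw [one_mul, (e.commute_of_mem y h9).mul_pow, hy, hsqz c h9, one_mul]) h7
        · exact absurd (by rw [mul_one, (e.commute_of_mem x h9).mul_pow, hx, hsqz c h9, one_mul]) h7
        · rw [inv_mul_cancel_left, hZ]; exact h9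
      exact e.ne_one (hxy2.symm.trans h6.2)
    · push Not at h5
      obtain ⟨u, hu⟩ := h5
      obtain ⟨w, hw⟩ := e'.exists_partner hu
      have h6 := e'.card_cent2 hw
      rw [(e'.sub hw).forall_mem_iff.mp (e'.forall_mem_of_no_involution hC hw).2.2] at h6
      have h32 : Nat.card X = 32 := by omega
      have hm : Minus z := ⟨e, h32, fun W hW => hrk W hW.1 hW.2⟩
      have h7 := card_inv_add_one (X := X)
      rw [hm.nsq_eq] at h7
      exact ⟨e.isExtraspecial hx', h32, by omega⟩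

end Hyp

end Cfsg.Agent.TG
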