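import Cfsg.Agent.TG.B

/-! The case of a centre of order four. -/

set_option autoImplicit false

namespace Cfsg.Agent.TG

open Subgroup Cfsg.Agent.H2
open scoped commutatorElement

variable {X : Type*} [Group X]

section classTwo

variable (hc : ∀ x y : X, ⁅x, y⁆ ∈ omZ X)
include hc

theorem cm_right (y a b : X) : ⁅y, a * b⁆ = ⁅y, a⁆ * ⁅y, b⁆ :=
  commutator_mul_right_of_commute (omZ_comm (hc _ _) _)

theorem cm_symm (x y : X) : ⁅x, y⁆ = ⁅y, x⁆ := by
  rw [← commutatorElement_inv x y, omZ_inv (hc x y)]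

theorem cm_left (a b y : X) : ⁅a * b, y⁆ = ⁅a, y⁆ * ⁅b, y⁆ := by
  rw [cm_symm hc, cm_right hc, cm_symm hc y, cm_symm hc y]

theorem cm_sq (x y : X) : (x * y) ^ 2 = x ^ 2 * y ^ 2 * ⁅x, y⁆ := by
  rw [mul_pow_of_commute_commutator (omZ_comm (hc _ _) _) (omZ_comm (hc _ _) _),
    Nat.choose_self, pow_one, cm_symm hc]

/-- Commutation with a fixed element. -/
def cmHom (y : X) : X →* omZ X :=
  MonoidHom.mk' (fun x => ⟨⁅y, x⁆, hc y x⟩) fun a b => Subtype.ext (cm_right hc y a b)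

omit hc in
theorem cm_om {v : X} (hv : v ∈ omZ X) (y : X) : ⁅y, v⁆ = 1 :=
  commutatorElement_eq_one_iff_commute.mpr (omZ_comm hv y)

end classTwo

namespace Hyp

variable [Finite X] {A : Subgroup (MulAut X)} (h : Hyp A)
include h

theorem exists_comm_not_mem (hc : ∀ x y : X, ⁅x, y⁆ ∈ omZ X) (h4 : Nat.card (omZ X) = 4)
    {a b : X} (hs : ⁅a, b⁆ ≠ 1) : ∃ c d : X, ⁅c, d⁆ ∉ zpowers ⁅a, b⁆ := by
  by_contra! hall
  set s := ⁅a, b⁆ with hsdef
  have hsV : s ∈ omZ X := hc a b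
  have hcases : ∀ w ∈ zpowers s, w = 1 ∨ w = s := by
    rintro _ ⟨i, rfl⟩
    exact zpow_eq_one_or_self hsV.2 i
  have hle : zpowers s ≤ omZ X := zpowers_le.mpr hsV
  have : (zpowers s).Normal := ⟨fun n hn g => by rwa [omZ_comm (hle hn) g, mul_inv_cancel_right]⟩
  obtain ⟨w, hw, hw'⟩ : ∃ w ∈ omZ X, w ∉ zpowers s := by
    by_contra! h1
    have h2 := card_le_of_le (show omZ X ≤ zpowers s from h1)
    rw [Nat.card_zpowers, orderOf_eq_prime hsV.2 hs] at h2
    omega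
  refine hw' (h.mem_of_fix hall fun φ hφ => ?_)
  have hφs : φ s = s := by
    refine (hcases _ ?_).resolve_left fun h1 => hs ((map_eq_one_iff _ φ.injective).mp h1)
    rw [hsdef, map_commutatorElement]
    exact hall _ _
  have hw1 : w ≠ 1 := fun h1 => hw' (h1 ▸ one_mem _)
  have hws : w ≠ s := fun h1 => hw' (h1 ▸ mem_zpowers _)
  rcases four_cases h4.le hw hsV (map_mem_omZ φ hw) hw1 hs hws
    (fun h1 => hws ((eq_inv_of_mul_eq_one_left h1).trans (omZ_inv hsV))) with h1 | h1 | h1 | h1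
  · exact absurd ((map_eq_one_iff _ φ.injective).mp h1) hw1
  · rw [h1, inv_mul_cancel]; exact one_mem _
  · exact absurd (φ.injective (h1.trans hφs.symm)) hws
  · rw [h1, inv_mul_cancel_left]; exact mem_zpowers _

theorem exists_comm_pair (hc : ∀ x y : X, ⁅x, y⁆ ∈ omZ X) (h4 : Nat.card (omZ X) = 4)
    {a b : X} (hs : ⁅a, b⁆ ≠ 1) :
    ∃ p q : X, Commute p q ∧ p ∉ omZ X ∧ q ∉ omZ X ∧ p * q ∉ omZ X := by
  by_contra hcon
  have hall : ∀ p q : X, ⁅p, q⁆ = 1 → p ∈ omZ X ∨ q ∈ omZ X ∨ p * q ∈ omZ X := fun p q hpq => by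
    by_contra! h1
    exact hcon ⟨p, q, commutatorElement_eq_one_iff_commute.mp hpq, h1⟩
  set s := ⁅a, b⁆ with hsdef
  have hsV : s ∈ omZ X := hc a b
  have haV : a ∉ omZ X := fun h1 => hs (by rw [hsdef, cm_symm hc, cm_om h1])
  obtain ⟨c, hc'⟩ : ∃ c, ⁅a, c⁆ ∉ zpowers s := by
    by_contra! h1
    have key : ∀ H : Subgroup X, a ∈ H → b ∈ H → omZ X ≤ H → ∀ x, x ∈ H := by
      intro H ha hb hV x
      have h2 : ∀ y, ⁅a, y⁆ = 1 → y ∈ H := fun y hy => by
        rcases hall a y hy with h2 | h2 | h2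
        · exact absurd h2 haV
        · exact hV h2
        · exact (mul_mem_cancel_left ha).mp (hV h2)
      obtain ⟨i, hi⟩ := h1 x
      rcases zpow_eq_one_or_self hsV.2 i with h3 | h3
      · exact h2 x (hi.symm.trans h3)
      · exact (mul_mem_cancel_left hb).mp (h2 (b * x) (by
          rw [cm_right hc, ← hsdef, ← hi]; simp only [h3]; exact omZ_mul_self hsV))
    have hb : ∀ x, ⁅b, x⁆ ∈ zpowers s := key ((zpowers s).comap ((omZ X).subtype.comp (cmHom hc b)))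
      (show ⁅b, a⁆ ∈ zpowers s by rw [cm_symm hc]; exact mem_zpowers _)
      (show ⁅b, b⁆ ∈ zpowers s by rw [commutatorElement_self]; exact one_mem _)
      (fun v hv => show ⁅b, v⁆ ∈ zpowers s by rw [cm_om hv]; exact one_mem _)
    obtain ⟨c, d, hcd⟩ := h.exists_comm_not_mem hc h4 hs
    refine hcd ?_
    rw [cm_symm hc c d]
    exact key ((zpowers s).comap ((omZ X).subtype.comp (cmHom hc d)))
      (show ⁅d, a⁆ ∈ zpowers s by rw [cm_symm hc]; exact h1 d)
      (show ⁅d, b⁆ ∈ zpowers s by rw [cm_symm hc]; exact hb d)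
      (fun v hv => show ⁅d, v⁆ ∈ zpowers s by rw [cm_om hv]; exact one_mem _) c
  set t := ⁅a, c⁆ with htdef
  have htV : t ∈ omZ X := hc a c
  have ht1 : t ≠ 1 := fun h1 => hc' (h1 ▸ one_mem _)
  have hts : s ≠ t := fun h1 => hc' (h1 ▸ mem_zpowers _)
  have hst : s * t ≠ 1 := fun h1 => hts ((eq_inv_of_mul_eq_one_left h1).trans (omZ_inv htV))
  have key : ∀ p q : X, ⁅a, p⁆ = s → ⁅a, q⁆ = t → ⁅p, q⁆ ≠ 1 := fun p q hp hq hpq => by
    rcases hall p q hpq with h1 | h1 | h1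
    · exact hs (hp.symm.trans (cm_om h1 a))
    · exact ht1 (hq.symm.trans (cm_om h1 a))
    · exact hst (by rw [← hp, ← hq, ← cm_right hc, cm_om h1])
  have e1 : ⁅a, a * b⁆ = s := by rw [cm_right hc, commutatorElement_self, one_mul]
  have e2 : ⁅a, a * c⁆ = t := by rw [cm_right hc, commutatorElement_self, one_mul]
  rcases four_cases h4.le hsV htV (hc b c) hs ht1 hts hst with h1 | h1 | h1 | h1
  · exact key b c rfl rfl h1
  · exact key b (a * c) rfl e2 (by rw [cm_right hc, cm_symm hc b a, h1]; exact omZ_mul_self hsV)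
  · exact key (a * b) c e1 rfl (by rw [cm_left hc, h1]; exact omZ_mul_self htV)
  · refine key (a * b) (a * c) e1 e2 ?_
    rw [cm_left hc, e2, cm_right hc, cm_symm hc b a, h1, ← hsdef, ← mul_assoc s, omZ_mul_self hsV,
      one_mul, omZ_mul_self htV]

theorem card_eq_64 (hcen : center X ≤ omZ X) (hsq : ∀ x : X, x ^ 2 ∈ omZ X)
    (hc : ∀ x y : X, ⁅x, y⁆ ∈ omZ X) (h4 : Nat.card (omZ X) = 4) {a b : X} (hab : Commute a b)
    (ha : a ∉ omZ X) (hb : b ∉ omZ X) (hab' : a * b ∉ omZ X) : Nat.card X = 64 := by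
  have hinv : ∀ t : X, t ^ 2 = 1 → t ∈ omZ X := fun t ht => h.mem_omZ_of_card h4 ht (hc t)
  set α := a ^ 2 with hα
  set β := b ^ 2 with hβ
  have hαV : α ∈ omZ X := hsq a
  have hβV : β ∈ omZ X := hsq b
  have hα1 : α ≠ 1 := fun h1 => ha (hinv a h1)
  have hβ1 : β ≠ 1 := fun h1 => hb (hinv b h1)
  have hαβ : α * β ≠ 1 := fun h1 => hab' (hinv _ (by rw [hab.mul_pow]; exact h1))
  have hαα := omZ_mul_self hαV
  have hββ := omZ_mul_self hβV
  have hβα : β * α = α * β := omZ_comm hαV β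
  have hne : α ≠ β := fun h1 => hαβ (by rw [← h1, hαα])
  let M : Subgroup X := omZ X ⊔ zpowers a ⊔ zpowers b
  have haM : a ∈ M := mem_sup_left (mem_sup_right (mem_zpowers a))
  have hbM : b ∈ M := mem_sup_right (mem_zpowers b)
  have hVM : omZ X ≤ M := le_sup_left.trans le_sup_left
  have hac : a ∈ centralizer (omZ X : Set X) := fun v hv => (omZ_comm hv a).symm
  have hbc : b ∈ centralizer ((omZ X ⊔ zpowers a : Subgroup X) : Set X) := by
    rw [centralizer_sup_zpowers]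
    exact mem_inf.mpr ⟨fun v hv => (omZ_comm hv b).symm, mem_centralizer_singleton_iff.mpr hab.symm⟩
  have hMc : IsMulCommutative M :=
    isMulCommutative_sup_zpowers (isMulCommutative_sup_zpowers omZ_isComm hac) hbc
  have hbn : b ∉ omZ X ⊔ zpowers a := by
    intro h1
    obtain ⟨v, hv, _, ⟨i, rfl⟩, h2⟩ := (mem_sup_of_le_normalizer' le_normalizer_of_normal).mp h1
    obtain ⟨j, rfl | rfl⟩ := Int.even_or_odd' i
    · refine hb (h2 ▸ mul_mem hv ?_)
      show a ^ (2 * j) ∈ _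
      rw [zpow_mul, zpow_ofNat]; exact zpow_mem hαV j
    · refine hab' ?_
      rw [← h2, ← mul_assoc, omZ_comm hv a, mul_assoc]
      refine mul_mem hv ?_
      show a * a ^ (2 * j + 1) ∈ _
      rw [← zpow_one_add, show 1 + (2 * j + 1) = 2 * (j + 1) by ring, zpow_mul, zpow_ofNat]
      exact zpow_mem hαV _
  have hM16 : Nat.card M = 16 := by
    rw [card_sup_zpowers_eq (p := 2) (centralizer_le_normalizer _ hbc) hbn (mem_sup_left hβV),
      card_sup_zpowers_eq (p := 2) (centralizer_le_normalizer _ hac) ha hαV, h4]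
  have bad : ∀ x : X, α * ⁅a, x⁆ ≠ 1 → β * ⁅b, x⁆ ≠ 1 → α * ⁅a, x⁆ ≠ β * ⁅b, x⁆ → x ∈ M := by
    intro x h1 h2 h3
    have hs := mul_mem hαV (hc a x)
    have ht := mul_mem hβV (hc b x)
    rcases four_cases h4.le hs ht (hsq x) h1 h2 h3
      (fun h5 => h3 ((eq_inv_of_mul_eq_one_left h5).trans (omZ_inv ht))) with h5 | h5 | h5 | h5
    · exact hVM (hinv x h5)
    · refine (mul_mem_cancel_left haM).mp (hVM (hinv _ ?_))
      rw [cm_sq hc, ← hα, mul_assoc, omZ_comm (hc a x) (x ^ 2), ← mul_assoc, h5, omZ_mul_self hs]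
    · refine (mul_mem_cancel_left hbM).mp (hVM (hinv _ ?_))
      rw [cm_sq hc, ← hβ, mul_assoc, omZ_comm (hc b x) (x ^ 2), ← mul_assoc, h5, omZ_mul_self ht]
    · refine (mul_mem_cancel_left (mul_mem haM hbM)).mp (hVM (hinv _ ?_))
      have h6 : α * β * (⁅a, x⁆ * ⁅b, x⁆) = α * ⁅a, x⁆ * (β * ⁅b, x⁆) := by
        rw [mul_assoc, mul_assoc, ← mul_assoc β, omZ_comm (hc a x) β, mul_assoc]
      rw [cm_sq hc, hab.mul_pow, ← hα, ← hβ, cm_left hc, mul_assoc,
        omZ_comm (mul_mem (hc a x) (hc b x)) (x ^ 2), ← mul_assoc, h6, h5,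
        omZ_mul_self (mul_mem hs ht)]
  let ψ : X →* omZ X × omZ X := (cmHom hc a).prod (cmHom hc b)
  have hψ : ∀ x, ψ x = (⟨⁅a, x⁆, hc a x⟩, ⟨⁅b, x⁆, hc b x⟩) := fun x => rfl
  have hker : ψ.ker = M := by
    ext x
    rw [MonoidHom.mem_ker, hψ, Prod.mk_eq_one, Subtype.ext_iff, Subtype.ext_iff]
    refine ⟨fun ⟨h1, h2⟩ => bad x ?_ ?_ ?_, fun hx => ⟨?_, ?_⟩⟩
    · rwa [show ⁅a, x⁆ = 1 from h1, mul_one]
    · rwa [show ⁅b, x⁆ = 1 from h2, mul_one]
    · rwa [show ⁅a, x⁆ = 1 from h1, show ⁅b, x⁆ = 1 from h2, mul_one, mul_one]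
    · exact commutatorElement_eq_one_iff_mul_comm.mpr (setLike_mul_comm haM hx)
    · exact commutatorElement_eq_one_iff_mul_comm.mpr (setLike_mul_comm hbM hx)
  have bad' : ∀ s t : omZ X, α * s ≠ 1 → β * t ≠ 1 → α * s ≠ β * t → (s, t) ∈ ψ.range →
      (s : X) = 1 ∧ (t : X) = 1 := by
    rintro s t h1 h2 h3 ⟨x, hx⟩
    have h5 : ⁅a, x⁆ = s := congrArg (fun u => (u.1 : X)) hx
    have h6 : ⁅b, x⁆ = t := congrArg (fun u => (u.2 : X)) hx
    have h7 : x ∈ ψ.ker := hker ▸ bad x (h5 ▸ h1) (h6 ▸ h2) (h5 ▸ h6 ▸ h3)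
    rw [MonoidHom.mem_ker, hx, Prod.mk_eq_one] at h7
    exact ⟨congrArg Subtype.val h7.1, congrArg Subtype.val h7.2⟩
  let a' : omZ X := ⟨α, hαV⟩
  let b' : omZ X := ⟨β, hβV⟩
  have f1 : α * (α * β) = β := by rw [← mul_assoc, hαα, one_mul]
  have f2 : β * (α * β) = α := by rw [← hβα, ← mul_assoc, hββ, one_mul]
  have f3 : α ≠ α * β := by simpa using hβ1
  have f4 : β ≠ α * β := by simpa using hα1
  have n1 : (1, a') ∉ ψ.range := fun h1 => hα1 (bad' 1 a' (by simpa using hα1)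
    (by simpa [a', hβα] using hαβ) (by simpa [a', hβα] using hβ1) h1).2
  have n2 : (b', 1) ∉ ψ.range := fun h1 => hβ1 (bad' b' 1 hαβ
    (by simpa using hβ1) (by simpa [b'] using hα1) h1).1
  have n3 : (a' * b', a' * b') ∉ ψ.range := fun h1 => hαβ (bad' _ _
    (by simpa [a', b', f1] using hβ1) (by simpa [a', b', f2] using hα1)
    (by simpa [a', b', f1, f2] using hne.symm) h1).1
  have n4 : (b', a' * b') ∉ ψ.range := fun h1 => hβ1 (bad' _ _ hαβ
    (by simpa [a', b', f2] using hα1) (by simpa [a', b', f2] using hβ1) h1).1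
  have n5 : (a' * b', a') ∉ ψ.range := fun h1 => hαβ (bad' _ _
    (by simpa [a', b', f1] using hβ1) (by simpa [a', hβα] using hαβ)
    (by simpa [a', b', f1, hβα] using hα1) h1).1
  have hU := card_mul_index ψ.range
  rw [Nat.card_prod, h4] at hU
  have i1 : ψ.range.index ≠ 1 := fun h1 => n1 (index_eq_one.mp h1 ▸ mem_top _)
  have i2 : ψ.range.index ≠ 2 := fun h1 => n5 (by
    have h2 := mul_mem ((mul_mem_iff_of_index_two h1).mpr (iff_of_false n1 n2))
      ((mul_mem_iff_of_index_two h1).mpr (iff_of_false n3 n4))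
    convert h2 using 1
    ext
    · simp [a', b', hββ, hβα, mul_assoc]
    · simp [a', b', omZ_mul_self (mul_mem hαV hβV)])
  have hX := card_mul_index M
  have hI : M.index = Nat.card ψ.range := by rw [← hker, index_ker]
  have j1 : M.index ≠ 1 := fun h1 => ha (hcen (mem_center_iff.mpr fun g =>
    setLike_mul_comm (index_eq_one.mp h1 ▸ mem_top g : g ∈ M) haM))
  have j2 : M.index ≠ 2 := fun h1 => by
    have key : ∀ (φ : MulAut X) (y : X), φ y ∈ M → y ∈ M := by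
      intro φ y hy
      by_contra hyM
      have h2 : (M.comap φ.toMonoidHom).index = 2 := by
        rw [index_comap_of_surjective _ φ.surjective, h1]
      have h3 : ∀ p ∈ M, φ p ∈ M → p ∈ omZ X := fun p hp hp' => hcen (mem_center_iff.mpr fun g => by
        have h4 : y * p = p * y := φ.injective (by rw [map_mul, map_mul, setLike_mul_comm hy hp'])
        by_cases hg : g ∈ M
        · exact setLike_mul_comm hg hp
        · have h5 : y⁻¹ * g ∈ M := (mul_mem_iff_of_index_two h1).mpr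
            (iff_of_false (fun h6 => hyM (by simpa using h6)) hg)
          rw [← mul_inv_cancel_left y g, mul_assoc, setLike_mul_comm h5 hp, ← mul_assoc, h4,
            mul_assoc])
      exact hab' (h3 _ (mul_mem haM hbM) ((mul_mem_iff_of_index_two h2).mpr
        (iff_of_false (fun h5 => ha (h3 a haM h5)) (fun h5 => hb (h3 b hbM h5)))))
    have h2 := h.gen M fun φ _ x => (mul_mem_iff_of_index_two h1).mpr (by
      rw [inv_mem_iff]
      exact ⟨fun hx => key φ⁻¹ _ (by simpa using hx), key φ x⟩)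
    rw [h2, index_top] at h1
    exact absurd h1 (by decide)
  rw [hI] at hX j1 j2
  have hd : Nat.card ψ.range ∣ 2 ^ 4 := ⟨_, hU.symm⟩
  obtain ⟨k, hk, hk'⟩ := (Nat.dvd_prime_pow Nat.prime_two).mp hd
  rw [hk'] at hU hX j1 j2
  interval_cases k <;> omega

theorem case_four (hna : ¬ IsMulCommutative X) (hcen : center X ≤ omZ X)
    (hsq : ∀ x : X, x ^ 2 ∈ omZ X) (h4 : Nat.card (omZ X) = 4) :
    IsSpecial 2 X ∧ Nat.card X = 64 ∧ Nat.card {x : X // orderOf x = 2} = 3 ∧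
      ∀ x : X, orderOf x = 2 → x ∈ center X := by
  have hc : ∀ x y : X, ⁅x, y⁆ ∈ omZ X := fun x y => by
    rw [comm_eq_sq]; exact mul_mem (mul_mem (hsq _) (hsq _)) (hsq _)
  have hinv : ∀ t : X, t ^ 2 = 1 → t ∈ omZ X := fun t ht => h.mem_omZ_of_card h4 ht (hc t)
  obtain ⟨a, b, hs⟩ : ∃ a b : X, ⁅a, b⁆ ≠ 1 := by
    by_contra! h1
    exact hna ⟨⟨fun a b => commutatorElement_eq_one_iff_mul_comm.mp (h1 a b)⟩⟩
  have h1 : commutator X ≤ center X := by
    rw [_root_.commutator_def, commutator_le]; exact fun x _ y _ => (hc x y).1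
  have h2 : commutator X = center X := by
    refine le_antisymm h1 fun v hv => ?_
    obtain ⟨c, d, hcd⟩ := h.exists_comm_not_mem hc h4 hs
    have hne : ⁅a, b⁆ ≠ ⁅c, d⁆ := fun h2 => hcd (h2 ▸ mem_zpowers _)
    have m1 : ⁅a, b⁆ ∈ commutator X := commutator_mem_commutator trivial trivial
    have m2 : ⁅c, d⁆ ∈ commutator X := commutator_mem_commutator trivial trivial
    rcases four_cases h4.le (hc a b) (hc c d) (hcen hv) hs (fun h2 => hcd (h2 ▸ one_mem _)) hne
      (fun h2 => hne ((eq_inv_of_mul_eq_one_left h2).trans (omZ_inv (hc c d))))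
      with rfl | rfl | rfl | rfl
    exacts [one_mem _, m1, m2, mul_mem m1 m2]
  obtain ⟨p, q, h3, h5, h6, h7⟩ := h.exists_comm_pair hc h4 hs
  refine ⟨⟨h.p, le_antisymm ((frattini_le_iff h.p).mpr ⟨h1, fun x => (hsq x).1⟩)
    (h2 ▸ commutator_le_frattini h.p), h2⟩, h.card_eq_64 hcen hsq hc h4 h3 h5 h6 h7, ?_,
    fun x hx => (hinv x (hx ▸ pow_orderOf_eq_one x)).1⟩
  have h8 := card_inv_add_one (X := X)
  have h9 : nsq (1 : X) = Nat.card (omZ X) :=
    Nat.card_congr (Equiv.subtypeEquivRight fun x => ⟨hinv x, fun hx => hx.2⟩)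
  omega

theorem final (hna : ¬ IsMulCommutative X) (hcen : center X ≤ omZ X)
    (hsq : ∀ x : X, x ^ 2 ∈ omZ X) :
    Nonempty (X ≃* QuaternionGroup 2) ∨
      (IsSpecial 2 X ∧ Nat.card X = 64 ∧ Nat.card {x : X // orderOf x = 2} = 3 ∧
        ∀ x : X, orderOf x = 2 → x ∈ center X) ∨
      (IsExtraspecial 2 X ∧ Nat.card X = 32 ∧ Nat.card {x : X // orderOf x = 2} = 11) := by
  obtain ⟨k, hk⟩ := IsPGroup.iff_card.mp (h.p.to_subgroup (omZ X))
  have h4 := h.card_omZ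
  match k, hk with
  | 0, hk =>
    exfalso
    rw [pow_zero, card_eq_one] at hk
    refine hna ⟨⟨fun a b => commutatorElement_eq_one_iff_mul_comm.mp ?_⟩⟩
    rw [← mem_bot, ← hk, comm_eq_sq]
    exact mul_mem (mul_mem (hsq _) (hsq _)) (hsq _)
  | 1, hk => exact (h.case_two hna hcen hsq hk).imp_right .inr
  | 2, hk => exact .inr (.inl (h.case_four hna hcen hsq hk))
  | k + 3, hk => rw [hk, pow_add] at h4; have := Nat.two_pow_pos k; omega

end Hyp

end Cfsg.Agent.TG
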