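import Cfsg.Agent.TG.C

/-! The case in which all invariant normal abelian subgroups are central. -/

set_option autoImplicit false

namespace Cfsg.Agent.TG

open Subgroup Cfsg.Agent.H2
open scoped commutatorElement

variable {X : Type*} [Group X]

theorem mul_sq_eq (e f : X) : (e * f) ^ 2 = e ^ 2 * ⁅e⁻¹, f⁆ * f ^ 2 := by
  rw [commutatorElement_def]; simp only [sq]; group

theorem comm_mul_left_eq (e f x : X) : ⁅e * f, x⁆ = e * ⁅f, x⁆ * e⁻¹ * ⁅e, x⁆ := by
  simp only [commutatorElement_def]; group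

/-- The preimage of the central involutions of `X / B`. -/
def omQ (B : Subgroup X) [hB : B.Normal] : Subgroup X where
  carrier := {e | e ^ 2 ∈ B ∧ ∀ x, ⁅e, x⁆ ∈ B}
  one_mem' := ⟨by rw [one_pow]; exact one_mem _, fun x => by
    rw [commutatorElement_one_left]; exact one_mem _⟩
  mul_mem' := fun {e f} he hf => ⟨by
    rw [mul_sq_eq, ← commutatorElement_inv]
    exact mul_mem (mul_mem he.1 (inv_mem (hf.2 _))) hf.1, fun x => by
    rw [comm_mul_left_eq]
    exact mul_mem (hB.conj_mem _ (hf.2 x) e) (he.2 x)⟩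
  inv_mem' := fun {e} he => ⟨by rw [inv_pow]; exact inv_mem he.1, fun x => by
    have : ⁅e⁻¹, x⁆ = e⁻¹ * ⁅e, x⁆⁻¹ * e⁻¹⁻¹ := by simp only [commutatorElement_def]; group
    rw [this]
    exact hB.conj_mem _ (inv_mem (he.2 x)) _⟩

theorem le_omQ (B : Subgroup X) [hB : B.Normal] : B ≤ omQ B := fun b hb =>
  ⟨pow_mem hb 2, fun x => by
    rw [commutatorElement_def, mul_assoc, mul_assoc, ← mul_assoc x]
    exact mul_mem hb (hB.conj_mem _ (inv_mem hb) x)⟩

instance omQ_normal (B : Subgroup X) [hB : B.Normal] : (omQ B).Normal := ⟨fun e he g => by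
  have : g * e * g⁻¹ = ⁅e, g⁆⁻¹ * e := by simp only [commutatorElement_def]; group
  rw [this]
  exact mul_mem (le_omQ B (inv_mem (he.2 g))) he⟩

theorem map_mem_omQ {B : Subgroup X} [B.Normal] {φ : MulAut X} (hφ : ∀ b ∈ B, φ b ∈ B) {e : X}
    (he : e ∈ omQ B) : φ e ∈ omQ B :=
  ⟨by rw [← map_pow]; exact hφ _ he.1, fun x => by
    obtain ⟨x, rfl⟩ := φ.surjective x
    rw [← map_commutatorElement]
    exact hφ _ (he.2 x)⟩

namespace Hyp

variable [Finite X] {A : Subgroup (MulAut X)} (h : Hyp A)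
include h

theorem sq_mem_center (hall : ∀ W : Subgroup X, W.Normal → IsMulCommutative W →
    (∀ φ ∈ A, ∀ b ∈ W, φ b ∈ W) → W ≤ center X) (x : X) : x ^ 2 ∈ center X := by
  have hU : ∀ (φ : MulAut X), ∀ u ∈ omQ (center X), φ u ∈ omQ (center X) := fun φ u hu =>
    map_mem_omQ (fun _ hb => map_mem_center φ hb) hu
  have hC : centralizer (omQ (center X) : Set X) ≤ center X := by
    by_contra hcon
    obtain ⟨y, h1, h2, h3, h4⟩ := exists_mem_not_mem_pow_mem_top h.p hcon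
    refine h2 (hall (omQ (center X) ⊓ centralizer (omQ (center X) : Set X)) inferInstance
      ⟨⟨fun a b => Subtype.ext (b.2.2 a a.2.1)⟩⟩ (fun φ _ b hb => ⟨hU φ b hb.1, fun u hu => ?_⟩)
      ⟨⟨h3, h4⟩, h1⟩)
    have := congrArg φ (hb.2 _ (hU φ⁻¹ u hu))
    simpa using this
  refine hC fun u hu => commutatorElement_eq_one_iff_mul_comm.mp ?_
  have hc : ∀ g, Commute g ⁅u, x⁆ := mem_center_iff.mp (hu.2 x)
  rw [commutator_pow_right_of_commute (hc x), ← commutator_pow_left_of_commute (hc u)]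
  exact commutatorElement_eq_one_iff_mul_comm.mpr (mem_center_iff.mp hu.1 x).symm

theorem case_a (hall : ∀ W : Subgroup X, W.Normal → IsMulCommutative W →
    (∀ φ ∈ A, ∀ b ∈ W, φ b ∈ W) → W ≤ center X)
    (hZ : (∀ φ ∈ A, ∀ z ∈ center X, φ z = z) ∨ center X ≤ omZ X) :
    center X ≤ omZ X ∧ ∀ x : X, x ^ 2 ∈ omZ X := by
  have hsq := h.sq_mem_center hall
  rcases hZ with hZ | hZ
  swap
  · exact ⟨hZ, fun x => hZ (hsq x)⟩
  have hc : ∀ x y : X, ⁅x, y⁆ ∈ omZ X := fun x y => by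
    have h1 : ⁅x, y⁆ ∈ center X := by
      rw [comm_eq_sq]; exact mul_mem (mul_mem (hsq _) (hsq _)) (hsq _)
    refine ⟨h1, ?_⟩
    rw [← commutator_pow_left_of_commute (mem_center_iff.mp h1 x)]
    exact commutatorElement_eq_one_iff_mul_comm.mpr (mem_center_iff.mp (hsq x) y).symm
  have h1 : center X ≤ omZ X := fun z hz => h.mem_of_fix hc fun φ hφ => by
    rw [hZ φ hφ z hz, inv_mul_cancel]; exact one_mem _
  exact ⟨h1, fun x => h1 (hsq x)⟩

end Hyp

end Cfsg.Agent.TG
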