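import Cfsg.Agent.TG.D

/-! The case of a homocyclic maximal invariant normal abelian subgroup, first part. -/

set_option autoImplicit false

namespace Cfsg.Agent.TG

open Subgroup Cfsg.Agent.H2
open scoped commutatorElement

variable {X : Type*} [Group X]

/-- The setting of the homocyclic case. -/
structure CaseB (A : Subgroup (MulAut X)) (B : Subgroup X) (ω : MulAut X) (j : ℕ) (b₀ : X) :
    Prop where
  hyp : Hyp A
  normal : B.Normal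
  comm : IsMulCommutative B
  inv : ∀ φ ∈ A, ∀ b ∈ B, φ b ∈ B
  max : ∀ W : Subgroup X, W.Normal → IsMulCommutative W → (∀ φ ∈ A, ∀ b ∈ W, φ b ∈ W) → B ≤ W →
    W ≤ B
  cen : center X ≤ B
  mem : ω ∈ A
  fpf : ∀ v ∈ omZ X, ω v = v → v = 1
  exp : ∀ b ∈ B, b ^ 2 ^ (j + 2) = 1
  mem₀ : b₀ ∈ B
  ne₀ : b₀ ^ 2 ^ (j + 1) ≠ 1

namespace CaseB

variable {A : Subgroup (MulAut X)} {B : Subgroup X} {ω : MulAut X} {j : ℕ} {b₀ : X}
  (h : CaseB A B ω j b₀)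
include h

theorem c {a b : X} (ha : a ∈ B) (hb : b ∈ B) : Commute a b :=
  have := h.comm
  setLike_mul_comm ha hb

theorem g_mem (x : X) {b : X} (hb : b ∈ B) : ⁅x, b⁆ ∈ B :=
  mul_mem (h.normal.conj_mem b hb x) (inv_mem hb)

theorem g_mul (x : X) {b c : X} (hb : b ∈ B) (hc : c ∈ B) : ⁅x, b * c⁆ = ⁅x, b⁆ * ⁅x, c⁆ :=
  commutator_mul_right_of_commute (h.c hb (h.g_mem x hc))

theorem g_pow (x : X) {b : X} (hb : b ∈ B) (n : ℕ) : ⁅x, b ^ n⁆ = ⁅x, b⁆ ^ n :=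
  commutator_pow_right_of_commute (h.c hb (h.g_mem x hb)) n

theorem g_inv (x : X) {b : X} (hb : b ∈ B) : ⁅x, b⁻¹⁆ = ⁅x, b⁆⁻¹ := by
  rw [eq_inv_iff_mul_eq_one, ← h.g_mul x (inv_mem hb) hb, inv_mul_cancel,
    commutatorElement_one_right]

theorem g_one {x b : X} (hx : x ∈ B) (hb : b ∈ B) : ⁅x, b⁆ = 1 :=
  commutatorElement_eq_one_iff_commute.mpr (h.c hx hb)

theorem V_le : omZ X ≤ B := omZ_le.trans h.cen

omit h in
theorem g_sq (x b : X) : ⁅x ^ 2, b⁆ = ⁅x, ⁅x, b⁆⁆ * ⁅x, b⁆ ^ 2 := by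
  simp only [commutatorElement_def, sq]; group

variable [Finite X]

theorem om {b : X} (hb : b ∈ B) (hb2 : b ^ 2 = 1) : b ∈ omZ X :=
  have := h.normal
  ⟨h.hyp.mem_center_of_sq h.comm h.inv hb hb2, hb2⟩

theorem lam_mem {b : X} (hb : b ∈ B) : b ^ 2 ^ (j + 1) ∈ omZ X :=
  h.om (pow_mem hb _) (by rw [← pow_mul, ← pow_succ, h.exp b hb])

theorem ne {v : X} (hv : v ∈ omZ X) (h1 : v ≠ 1) : ω v ≠ v := fun h2 => h1 (h.fpf v hv h2)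

theorem card4 : Nat.card (omZ X) = 4 :=
  h.hyp.card_omZ_eq (h.lam_mem h.mem₀) (h.ne (h.lam_mem h.mem₀) h.ne₀)

theorem lam_surj {v : X} (hv : v ∈ omZ X) : ∃ b ∈ B, v = b ^ 2 ^ (j + 1) := by
  have h1 := h.inv ω h.mem _ h.mem₀
  rcases h.hyp.cases_of_fpf (h.lam_mem h.mem₀) (h.ne (h.lam_mem h.mem₀) h.ne₀) hv
    with h2 | h2 | h2 | h2
  · exact ⟨1, one_mem _, by rw [h2, one_pow]⟩
  · exact ⟨b₀, h.mem₀, h2⟩
  · exact ⟨ω b₀, h1, by rw [h2, map_pow]⟩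
  · exact ⟨b₀ * ω b₀, mul_mem h.mem₀ h1, by rw [h2, map_pow, (h.c h.mem₀ h1).mul_pow]⟩

theorem root (n : ℕ) : ∀ m, n + m = j + 2 → ∀ c ∈ B, c ^ 2 ^ n = 1 → ∃ d ∈ B, c = d ^ 2 ^ m := by
  induction n with
  | zero => intro m _ c _ hc; exact ⟨1, one_mem _, by simpa using hc⟩
  | succ n ih =>
    intro m hm c hc hc1
    obtain ⟨b, hb, h1⟩ := h.lam_surj (h.om (pow_mem hc (2 ^ n)) (by rw [← pow_mul, ← pow_succ, hc1]))
    obtain ⟨d, hd, h2⟩ := ih (m + 1) (by omega) (c * (b ^ 2 ^ m)⁻¹)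
      (mul_mem hc (inv_mem (pow_mem hb _))) (by
        rw [(h.c hc (inv_mem (pow_mem hb _))).mul_pow, h1, inv_pow, ← pow_mul, ← pow_add,
          show m + n = j + 1 by omega, mul_inv_cancel])
    refine ⟨d ^ 2 * b, mul_mem (pow_mem hd 2) hb, ?_⟩
    rw [(h.c (pow_mem hd 2) hb).mul_pow, ← pow_mul, ← pow_succ', ← h2, inv_mul_cancel_right]

theorem root2 {c : X} (hc : c ∈ B) (h1 : c ^ 2 ^ (j + 1) = 1) : ∃ d ∈ B, c = d ^ 2 :=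
  h.root (j + 1) 1 rfl c hc h1

theorem root4 {c : X} (hc : c ∈ B) (h1 : c ^ 2 ^ j = 1) : ∃ d ∈ B, c = d ^ 4 :=
  h.root j 2 rfl c hc h1

theorem f_mem (x : X) {b : X} (hb : b ∈ B) : ⁅x, b⁆ ^ 2 ^ j ∈ omZ X :=
  h.om (pow_mem (h.g_mem x hb) _) (by
    rw [← pow_mul, ← pow_succ, ← h.g_pow x hb, cm_om (h.lam_mem hb)])

omit [Finite X] in
theorem f_left {m : ℕ} {x y b : X} (hb : b ∈ B) (hx : ⁅x, b⁆ ^ m ∈ omZ X)
    (hy : ⁅y, b⁆ ^ m ∈ omZ X) : ⁅x * y, b⁆ ^ m = ⁅x, b⁆ ^ m * ⁅y, b⁆ ^ m := by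
  rw [comm_mul_left_eq, (h.c (h.normal.conj_mem _ (h.g_mem y hb) x) (h.g_mem x hb)).mul_pow,
    conj_pow, omZ_comm hy x, mul_inv_cancel_right, omZ_comm hx]

omit [Finite X] in
theorem f_right {m : ℕ} (x : X) {b c : X} (hb : b ∈ B) (hc : c ∈ B) :
    ⁅x, b * c⁆ ^ m = ⁅x, b⁆ ^ m * ⁅x, c⁆ ^ m := by
  rw [h.g_mul x hb hc, (h.c (h.g_mem x hb) (h.g_mem x hc)).mul_pow]

theorem f_congr {m : ℕ} {x : X} (hx : ∀ b ∈ B, ⁅x, b⁆ ^ m ∈ omZ X) {b c : X} (hb : b ∈ B)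
    (hc : c ∈ B) (hbc : b ^ 2 ^ (j + 1) = c ^ 2 ^ (j + 1)) : ⁅x, b⁆ ^ m = ⁅x, c⁆ ^ m := by
  obtain ⟨d, hd, h1⟩ := h.root2 (mul_mem hb (inv_mem hc)) (by
    rw [(h.c hb (inv_mem hc)).mul_pow, hbc, inv_pow, mul_inv_cancel])
  rw [mul_inv_eq_iff_eq_mul] at h1
  rw [h1, h.f_right x (pow_mem hd 2) hc, h.g_pow x hd, ← pow_mul, mul_comm 2 m, pow_mul,
    (hx d hd).2, one_mul]

theorem zero_or_inj {m : ℕ} {x : X} (hx : ∀ b ∈ B, ⁅x, b⁆ ^ m ∈ omZ X)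
    (hrel : ∀ b ∈ B, ⁅x, b⁆ ^ m * ⁅ω x, b⁆ ^ m * ⁅ω (ω x), b⁆ ^ m = 1) {b₁ : X} (hb₁ : b₁ ∈ B)
    (h1 : b₁ ^ 2 ^ (j + 1) ≠ 1) (h2 : ⁅x, b₁⁆ ^ m = 1) {b : X} (hb : b ∈ B) : ⁅x, b⁆ ^ m = 1 := by
  have hv := h.lam_mem hb₁
  have m1 := h.inv ω h.mem _ hb₁
  have m2 := h.inv ω h.mem _ m1
  have e1 : ⁅x, ω (ω b₁)⁆ ^ m = ⁅x, ω b₁⁆ ^ m := by
    rw [h.f_congr hx m2 (mul_mem hb₁ m1) (by
      rw [← map_pow, ← map_pow, h.hyp.sq_apply h.fpf hv, (h.c hb₁ m1).mul_pow, map_pow]),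
      h.f_right x hb₁ m1, h2, one_mul]
  have e2 := hrel _ m2
  rw [e1, ← map_commutatorElement, ← map_commutatorElement, ← map_commutatorElement, ← map_pow,
    ← map_pow, ← map_pow, h2, map_one, map_one, mul_one] at e2
  have e3 : ⁅x, ω b₁⁆ ^ m = 1 := h.fpf _ (hx _ m1)
    ((eq_inv_of_mul_eq_one_right e2).trans (omZ_inv (hx _ m1)))
  rcases h.hyp.cases_of_fpf hv (h.ne hv h1) (h.lam_mem hb) with h3 | h3 | h3 | h3
  · rw [h.f_congr hx hb (one_mem _) (by rw [h3, one_pow]), commutatorElement_one_right, one_pow]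
  · rw [h.f_congr hx hb hb₁ h3, h2]
  · rw [h.f_congr hx hb m1 (by rw [h3, map_pow]), e3]
  · rw [h.f_congr hx hb (mul_mem hb₁ m1) (by rw [h3, map_pow, (h.c hb₁ m1).mul_pow]),
      h.f_right x hb₁ m1, h2, e3, one_mul]

/-- The elements acting trivially on `B` modulo fourth powers. -/
def K : Subgroup X where
  carrier := {x | ∀ b ∈ B, ⁅x, b⁆ ^ 2 ^ j = 1}
  one_mem' := fun b _ => by rw [commutatorElement_one_left, one_pow]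
  mul_mem' := fun {x y} hx hy b hb => by
    rw [h.f_left hb (h.f_mem x hb) (h.f_mem y hb), hx b hb, hy b hb, one_mul]
  inv_mem' := fun {x} hx b hb => by
    have := h.f_left hb (h.f_mem x⁻¹ hb) (h.f_mem x hb)
    rwa [inv_mul_cancel, commutatorElement_one_left, one_pow, hx b hb, mul_one, eq_comm] at this

theorem mem_K {x : X} : x ∈ h.K ↔ ∀ b ∈ B, ⁅x, b⁆ ^ 2 ^ j = 1 := Iff.rfl

theorem K_normal : h.K.Normal := ⟨fun x hx g b hb => by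
  rw [h.f_left hb (h.f_mem _ hb) (h.f_mem _ hb), h.f_left hb (h.f_mem _ hb) (h.f_mem _ hb),
    hx b hb, mul_one, ← h.f_left hb (h.f_mem _ hb) (h.f_mem _ hb), mul_inv_cancel,
    commutatorElement_one_left, one_pow]⟩

theorem K_inv {φ : MulAut X} (hφ : φ ∈ A) {x : X} (hx : x ∈ h.K) : φ x ∈ h.K := fun b hb => by
  have := congrArg φ (hx _ (h.inv φ⁻¹ (inv_mem hφ) b hb))
  rwa [map_pow, map_commutatorElement, map_one, MulAut.apply_inv_self] at this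

theorem le_K : B ≤ h.K := fun x hx b hb => by rw [h.g_one hx hb, one_pow]

theorem sq_mem_K (x : X) : x ^ 2 ∈ h.K := fun b hb => by
  rw [sq, h.f_left hb (h.f_mem _ hb) (h.f_mem _ hb), omZ_mul_self (h.f_mem _ hb)]

theorem E_comm_mem {e : X} (he : e ∈ h.K) (he2 : e ^ 2 ∈ B) {b : X} (hb : b ∈ B) :
    ⁅e, b⁆ ∈ omZ X := by
  have key : ∀ s, (∀ b ∈ B, ⁅e, b⁆ ^ 2 ^ (s + 1) = 1) → ∀ b ∈ B, ⁅e, b⁆ ^ 2 = 1 := by
    intro s
    induction s with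
    | zero => intro h1; simpa using h1
    | succ s ih =>
      intro h1
      refine ih fun b hb => ?_
      obtain ⟨c, hc, h2⟩ := h.root4 (h.g_mem e hb) (he b hb)
      have h3 := g_sq e b
      rw [h.g_one he2 hb, eq_comm, mul_eq_one_iff_inv_eq] at h3
      rw [pow_succ', pow_mul, ← h3, h2, h.g_pow e hc, inv_pow, ← pow_mul,
        show 4 * 2 ^ s = 2 ^ (s + 1 + 1) by ring, h1 c hc, inv_one]
  exact h.om (h.g_mem e hb) (key (j + 1) (fun b hb => h.exp _ (h.g_mem e hb)) b hb)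

theorem E_comm_eq_one {e : X} (he : e ∈ h.K) (he2 : e ^ 2 ∈ B) {b : X} (hb : b ∈ B)
    (hb2 : b ^ 2 ∈ omZ X) : ⁅e, b⁆ = 1 := by
  rcases j with _ | i
  · simpa using he b hb
  · obtain ⟨c, hc, rfl⟩ := h.root2 hb (by
      rw [show 2 ^ (i + 1 + 1) = 2 * 2 * 2 ^ i by ring, pow_mul, pow_mul, hb2.2, one_pow])
    rw [h.g_pow e hc, (h.E_comm_mem he he2 hc).2]

end CaseB

end Cfsg.Agent.TG
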